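/-
PGroups: for odd p, rank at least four gives a normal elementary abelian subgroup of order p^4.
-/
import Cfsg.Agent.Lib.PGroups.NormalAbelian

set_option autoImplicit false

open scoped commutatorElement

namespace CfsgLib.PGroups

universe u

variable {G : Type u} [Group G] {p : ℕ}

theorem inf_index_le_of_commutator {E C L : Subgroup G} (a : G) [Finite G]
    (hL : ∀ e ∈ E, ⁅e, a⁆ ∈ L) (hC : C = Subgroup.centralizer ({a} : Set G)) :
    C.relIndex E ≤ Nat.card L := by
  subst hC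
  rw [Subgroup.relIndex, Subgroup.index_eq_card]
  refine Nat.card_le_card_of_injective
    (fun q : E ⧸ (Subgroup.centralizer ({a} : Set G)).subgroupOf E => (⟨⁅(q.out : G), a⁆, hL _ q.out.2⟩ : L)) ?_
  intro q₁ q₂ he
  rw [← q₁.out_eq', ← q₂.out_eq', QuotientGroup.eq, Subgroup.mem_subgroupOf,
    Subgroup.mem_centralizer_singleton_iff]
  have h1 : ⁅(q₁.out : G), a⁆ = ⁅(q₂.out : G), a⁆ := congrArg Subtype.val he
  rw [commutatorElement_def, commutatorElement_def, mul_left_inj] at h1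
  set x := (q₁.out : G)
  set y := (q₂.out : G)
  show x⁻¹ * y * a = a * (x⁻¹ * y)
  calc x⁻¹ * y * a = x⁻¹ * (y * a * y⁻¹) * y := by group
    _ = x⁻¹ * (x * a * x⁻¹) * y := by rw [h1]
    _ = a * (x⁻¹ * y) := by group

variable [Finite G] [hp : Fact p.Prime]

/-- A maximal normal elementary abelian subgroup. -/
theorem exists_maximal_normal_elemAb (hp2 : p ≠ 2) (hG : IsPGroup p G) :
    ∃ A : Subgroup G, A.Normal ∧ Cfsg.IsElementaryAbelian p A ∧
      ∀ x ∈ Subgroup.centralizer (A : Set G), x ^ p = 1 → x ∈ A := by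
  obtain ⟨A, hA⟩ := Set.Finite.exists_maximal
    (s := {A : Subgroup G | A.Normal ∧ Cfsg.IsElementaryAbelian p A}) (Set.toFinite _)
    ⟨⊥, inferInstance, inferInstance, fun a ha => by rw [Subgroup.mem_bot.1 ha, one_pow]⟩
  obtain ⟨hAn, hAe⟩ := hA.1
  refine ⟨A, hAn, hAe, fun x hx hxp => ?_⟩
  refine mem_of_maximal_exponent hG 1 (by rwa [pow_one]) A hAe.1
    (fun a ha => by rw [pow_one]; exact hAe.2 a ha) (fun B hB hBc hBe hAB => ?_) hx
    (by rw [pow_one]; exact hxp)
  exact le_antisymm (hA.2 ⟨hB, hBc, fun b hb => by simpa using hBe b hb⟩ hAB) hAB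

omit [Finite G] hp in
theorem elemAb_commute {A : Subgroup G} (hA : Cfsg.IsElementaryAbelian p A) {a b : G}
    (ha : a ∈ A) (hb : b ∈ A) : Commute a b :=
  congrArg Subtype.val (hA.1.is_comm.comm ⟨a, ha⟩ ⟨b, hb⟩)

omit [Finite G] hp in
theorem isElementaryAbelian_of_le {A B : Subgroup G} (hB : Cfsg.IsElementaryAbelian p B)
    (h : A ≤ B) : Cfsg.IsElementaryAbelian p A :=
  ⟨⟨⟨fun a b => Subtype.ext (elemAb_commute hB (h a.2) (h b.2)).eq⟩⟩,
    fun a ha => hB.2 a (h ha)⟩

/-- With a normal elementary abelian subgroup `A₀` of order `p ^ 3` containing all elements of order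
`p` of its centralizer, every elementary abelian subgroup of order `p ^ 4` meets it in a prescribed
normal subgroup of order `p ^ 2`. -/
theorem inf_eq_of_elemAb_four (hG : IsPGroup p G) {A₀ L₁ L₂ : Subgroup G}
    (hA₀ : Cfsg.IsElementaryAbelian p A₀)
    (hmax : ∀ x ∈ Subgroup.centralizer (A₀ : Set G), x ^ p = 1 → x ∈ A₀)
    (hc₀ : Nat.card A₀ = p ^ 3) (h₁₂ : L₁ ≤ L₂) (h₂₀ : L₂ ≤ A₀) (hc₁ : Nat.card L₁ = p)
    (hc₂ : Nat.card L₂ = p ^ 2)
    (hcA : ∀ g : G, ∀ a ∈ A₀, ⁅g, a⁆ ∈ L₂) (hcL : ∀ g : G, ∀ b ∈ L₂, ⁅g, b⁆ ∈ L₁)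
    (hcZ : L₁ ≤ Subgroup.center G)
    {E : Subgroup G} (hE : Cfsg.IsElementaryAbelian p E) (hE4 : Nat.card E = p ^ 4) :
    E ⊓ A₀ = L₂ := by
  obtain ⟨b, hbL, hbn⟩ : ∃ b ∈ L₂, b ∉ L₁ := by
    by_contra h
    push Not at h
    have := Subgroup.card_le_of_le (show L₂ ≤ L₁ from h)
    rw [hc₁, hc₂] at this
    have := lt_self_pow₀ hp.out.one_lt (show 1 < 2 by omega)
    omega
  obtain ⟨a, haA, han⟩ : ∃ a ∈ A₀, a ∉ L₂ := by
    by_contra h
    push Not at h
    have := Subgroup.card_le_of_le (show A₀ ≤ L₂ from h)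
    rw [hc₀, hc₂] at this
    have := (Nat.pow_le_pow_iff_right hp.out.one_lt).1 this
    omega
  have hsup : ∀ {L M : Subgroup G} (x : G), L ≤ M → x ∈ M → x ∉ L →
      Nat.card M = p * Nat.card L → M ≤ L ⊔ Subgroup.zpowers x := by
    intro L M x hLM hxM hxL hc
    have hlt : L < L ⊔ Subgroup.zpowers x := lt_of_le_of_ne le_sup_left fun h =>
      hxL (h ▸ Subgroup.mem_sup_right (Subgroup.mem_zpowers x))
    exact (Subgroup.eq_of_le_of_card_ge (sup_le hLM (Subgroup.zpowers_le.2 hxM))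
      (hc ▸ prime_mul_card_le hG hlt)).ge
  set F := E ⊓ A₀
  set E₁ := E ⊓ Subgroup.centralizer ({b} : Set G)
  set E₂ := E₁ ⊓ Subgroup.centralizer ({a} : Set G)
  have hE₂ : E₂ ≤ F := by
    intro e he
    refine ⟨he.1.1, hmax e ?_ (hE.2 e he.1.1)⟩
    have hL₂ : L₂ ≤ Subgroup.centralizer ({e} : Set G) := by
      refine (hsup b h₁₂ hbL hbn (by rw [hc₂, hc₁, pow_two])).trans (sup_le ?_ ?_)
      · intro z hz
        rw [Subgroup.mem_centralizer_singleton_iff]
        exact (Subgroup.mem_center_iff.1 (hcZ hz) e).symm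
      · rw [Subgroup.zpowers_le, Subgroup.mem_centralizer_singleton_iff]
        exact (Subgroup.mem_centralizer_singleton_iff.1 he.1.2).symm
    have hA : A₀ ≤ Subgroup.centralizer ({e} : Set G) := by
      refine (hsup a h₂₀ haA han (by rw [hc₀, hc₂]; ring)).trans (sup_le hL₂ ?_)
      rw [Subgroup.zpowers_le, Subgroup.mem_centralizer_singleton_iff]
      exact (Subgroup.mem_centralizer_singleton_iff.1 he.2).symm
    exact Subgroup.mem_centralizer_iff.2 fun z hz =>
      Subgroup.mem_centralizer_singleton_iff.1 (hA hz)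
  have i1 : E₁.relIndex E ≤ p := by
    rw [Subgroup.inf_relIndex_left]
    exact (inf_index_le_of_commutator b (fun e _ => hcL e b hbL) rfl).trans_eq hc₁
  have i2 : E₂.relIndex E₁ ≤ p ^ 2 := by
    rw [Subgroup.inf_relIndex_left]
    exact (inf_index_le_of_commutator a (fun e _ => hcA e a haA) rfl).trans_eq hc₂
  have hEsplit : p ^ 4 = Nat.card E₂ * E₂.relIndex E₁ * E₁.relIndex E := by
    rw [← hE4]
    have h1 := Subgroup.relIndex_mul_relIndex ⊥ E₂ E₁ bot_le inf_le_left
    have h2 := Subgroup.relIndex_mul_relIndex ⊥ E₁ E bot_le inf_le_left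
    simp only [Subgroup.relIndex_bot_left] at h1 h2
    rw [h1, h2]
  obtain ⟨k, hk⟩ := IsPGroup.iff_card.1 (hG.to_subgroup F)
  have hk3 : k ≤ 3 := by
    have := Subgroup.card_le_of_le (inf_le_right : F ≤ A₀)
    rw [hk, hc₀] at this
    exact (Nat.pow_le_pow_iff_right hp.out.one_lt).1 this
  have hE₂c : Nat.card E₂ ≤ p ^ k := hk ▸ Subgroup.card_le_of_le hE₂
  have hFne : k ≠ 3 := by
    intro hk3
    have hFA : F = A₀ := Subgroup.eq_of_le_of_card_ge inf_le_right (by rw [hk, hk3, hc₀])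
    have hle : E ≤ A₀ := fun e he => hmax e (Subgroup.mem_centralizer_iff.2 fun z hz =>
      elemAb_commute hE ((hFA ▸ hz : z ∈ F).1) he) (hE.2 e he)
    have := Subgroup.card_le_of_le hle
    rw [hE4, hc₀] at this
    have := (Nat.pow_le_pow_iff_right hp.out.one_lt).1 this
    omega
  have hF2 : k = 2 := by
    by_contra hne
    -- then `E₁` has index `p` and `e ↦ ⁅e, a⁆` maps it onto `L₂`
    have hk1 : k ≤ 1 := by omega
    have hp4 : p ^ 4 = p * p ^ 2 * p := by ring
    have hE₂p : Nat.card E₂ ≤ p := hE₂c.trans ((Nat.pow_le_pow_right hp.out.pos hk1).trans_eq (pow_one p))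
    have e1 : E₁.relIndex E = p := by
      refine le_antisymm i1 (Nat.le_of_mul_le_mul_left ?_ (show 0 < p * p ^ 2 by
        have := hp.out.pos; positivity))
      rw [← hp4, hEsplit]
      exact Nat.mul_le_mul_right _ (Nat.mul_le_mul hE₂p i2)
    have e2 : E₂.relIndex E₁ = p ^ 2 := by
      refine le_antisymm i2 (Nat.le_of_mul_le_mul_left ?_ (show 0 < p * p by
        have := hp.out.pos; positivity))
      rw [show p * p * p ^ 2 = p ^ 4 by ring, hEsplit, e1, mul_comm (p * p), mul_comm (Nat.card E₂),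
        mul_assoc]
      exact Nat.mul_le_mul_left _ (Nat.mul_le_mul_right _ hE₂p)
    obtain ⟨e₀, he₀, he₀n⟩ : ∃ e ∈ E, e ∉ E₁ := by
      by_contra h
      push Not at h
      rw [Subgroup.relIndex_eq_one.2 (show E ≤ E₁ from h)] at e1
      exact hp.out.ne_one e1.symm
    have hz : ⁅e₀, b⁆ ≠ 1 := fun h => he₀n ⟨he₀, Subgroup.mem_centralizer_singleton_iff.2
      (commutatorElement_eq_one_iff_mul_comm.1 h)⟩
    obtain ⟨e₁, he₁, he₁a⟩ : ∃ e₁ ∈ E₁, ⁅e₁, a⁆ = b := by
      classical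
      let f : E₁ ⧸ E₂.subgroupOf E₁ → L₂ := fun q => ⟨⁅(q.out : G), a⁆, hcA _ a haA⟩
      have hinj : Function.Injective f := by
        intro q₁ q₂ he
        rw [← q₁.out_eq', ← q₂.out_eq', QuotientGroup.eq, Subgroup.mem_subgroupOf]
        refine Subgroup.mem_inf.2 ⟨(q₁.out⁻¹ * q₂.out).2, ?_⟩
        rw [Subgroup.mem_centralizer_singleton_iff]
        have h1 : ⁅(q₁.out : G), a⁆ = ⁅(q₂.out : G), a⁆ := congrArg Subtype.val he
        rw [commutatorElement_def, commutatorElement_def, mul_left_inj] at h1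
        push_cast
        set x := (q₁.out : G)
        set y := (q₂.out : G)
        calc x⁻¹ * y * a = x⁻¹ * (y * a * y⁻¹) * y := by group
          _ = x⁻¹ * (x * a * x⁻¹) * y := by rw [h1]
          _ = a * (x⁻¹ * y) := by group
      have hbij : Function.Bijective f := (Nat.bijective_iff_injective_and_card f).2
        ⟨hinj, by rw [← Subgroup.index_eq_card, ← Subgroup.relIndex, e2, hc₂]⟩
      obtain ⟨q, hq⟩ := hbij.2 ⟨b, hbL⟩
      exact ⟨q.out, q.out.2, congrArg Subtype.val hq⟩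
    have he01 : Commute e₀ e₁ := elemAb_commute hE he₀ he₁.1
    have he1b : Commute e₁ b := Subgroup.mem_centralizer_singleton_iff.1 he₁.2
    set l := ⁅e₀, a⁆ with hl
    have hlL : l ∈ L₂ := hcA e₀ a haA
    have he1l : Commute e₁ l := by
      have : L₁.Normal := ⟨fun z hz g => by
        rw [Subgroup.mem_center_iff.1 (hcZ hz) g, mul_inv_cancel_right]; exact hz⟩
      obtain ⟨z, hz, t, ht, hzt⟩ := Subgroup.mem_sup_of_normal_left.1
        (hsup b h₁₂ hbL hbn (by rw [hc₂, hc₁, pow_two]) hlL)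
      obtain ⟨i, rfl⟩ := Subgroup.mem_zpowers_iff.1 ht
      rw [← hzt]
      exact (show Commute e₁ z from Subgroup.mem_center_iff.1 (hcZ hz) e₁).mul_right
        (he1b.zpow_right i)
    -- conjugate `a` by the commuting elements in the two orders
    have h1 : MulAut.conj e₀ (MulAut.conj e₁ a) = MulAut.conj e₁ (MulAut.conj e₀ a) := by
      rw [← MulAut.mul_apply, ← MulAut.mul_apply, ← map_mul, ← map_mul, he01.eq]
    have g2 : MulAut.conj e₁ a = b * a := by rw [conj_eq_commutatorElement_mul, he₁a]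
    have g3 : MulAut.conj e₀ a = l * a := by rw [conj_eq_commutatorElement_mul]
    have g4 : MulAut.conj e₀ b = ⁅e₀, b⁆ * b := conj_eq_commutatorElement_mul
    have g5 : MulAut.conj e₁ l = l := by
      rw [MulAut.conj_apply, he1l.eq, mul_inv_cancel_right]
    have hbl : b * l = l * b := (elemAb_commute hA₀ (h₂₀ hbL) (h₂₀ hlL)).eq
    rw [g2, map_mul, g4, g3, map_mul, g5, g2, ← mul_assoc, ← mul_assoc, mul_assoc ⁅e₀, b⁆ b l,
      hbl, mul_left_inj] at h1
    exact hz (mul_eq_right.1 h1)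
  -- `F = L₂`
  refine Subgroup.eq_of_le_of_card_ge ?_ (by rw [hc₂, hk, hF2])
  by_contra hne
  obtain ⟨c, hcF, hcL₂⟩ := SetLike.not_le_iff_exists.1 hne
  -- `E` centralizes `c`, so `⁅e, ·⁆` is determined by its value on `L₂`
  have hEb : E₁ ≤ F := by
    intro e he
    refine ⟨he.1, hmax e ?_ (hE.2 e he.1)⟩
    have hL₂ : L₂ ≤ Subgroup.centralizer ({e} : Set G) := by
      refine (hsup b h₁₂ hbL hbn (by rw [hc₂, hc₁, pow_two])).trans (sup_le ?_ ?_)
      · intro z hz
        rw [Subgroup.mem_centralizer_singleton_iff]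
        exact (Subgroup.mem_center_iff.1 (hcZ hz) e).symm
      · rw [Subgroup.zpowers_le, Subgroup.mem_centralizer_singleton_iff]
        exact (Subgroup.mem_centralizer_singleton_iff.1 he.2).symm
    have hA : A₀ ≤ Subgroup.centralizer ({e} : Set G) := by
      refine (hsup c h₂₀ hcF.2 hcL₂ (by rw [hc₀, hc₂]; ring)).trans (sup_le hL₂ ?_)
      rw [Subgroup.zpowers_le, Subgroup.mem_centralizer_singleton_iff]
      exact elemAb_commute hE hcF.1 he.1
    exact Subgroup.mem_centralizer_iff.2 fun z hz =>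
      Subgroup.mem_centralizer_singleton_iff.1 (hA hz)
  have h1 := Subgroup.relIndex_mul_relIndex ⊥ E₁ E bot_le inf_le_left
  simp only [Subgroup.relIndex_bot_left] at h1
  have h2 : Nat.card E₁ ≤ p ^ 2 := (Subgroup.card_le_of_le hEb).trans_eq (by rw [hk, hF2])
  have h3 := Nat.mul_le_mul h2 i1
  rw [h1, hE4, ← pow_succ] at h3
  have := (Nat.pow_le_pow_iff_right hp.out.one_lt).1 h3
  omega

/-- For odd p, a p-group with an elementary abelian subgroup of order `p ^ 4` has a normal one. -/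
theorem exists_normal_elemAb_four {G : Type u} [Group G] [Finite G] (hp2 : p ≠ 2)
    (hG : IsPGroup p G) {E : Subgroup G} (hE : Cfsg.IsElementaryAbelian p E)
    (hE4 : Nat.card E = p ^ 4) :
    ∃ A : Subgroup G, A.Normal ∧ Cfsg.IsElementaryAbelian p A ∧ Nat.card A = p ^ 4 := by
  induction hn : Nat.card G using Nat.strong_induction_on generalizing G with
  | _ n ih =>
  subst hn
  by_cases htop : E = ⊤
  · exact ⟨E, htop ▸ inferInstance, hE, hE4⟩
  obtain ⟨M, hEM, hMn, -, hMc⟩ := exists_le_index_prime hG htop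
  have hlt : Nat.card M < Nat.card G := lt_of_le_of_ne (Subgroup.card_le_card_group M)
    fun he => hMc.1 (Subgroup.eq_top_of_card_eq M he)
  obtain ⟨A', hA'n, hA'e, hA'4⟩ := ih _ hlt (hG.to_subgroup M) (E := E.subgroupOf M)
    ⟨⟨⟨fun a b => Subtype.ext (Subtype.ext (elemAb_commute hE a.2 b.2).eq)⟩⟩,
      fun a ha => Subtype.ext (by simpa using hE.2 (a : G) ha)⟩
    (by rw [Nat.card_congr (Subgroup.subgroupOfEquivOfLe hEM).toEquiv, hE4]) rfl
  set A := A'.map M.subtype with hAdef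
  have hAe : Cfsg.IsElementaryAbelian p A := by
    refine ⟨?_, ?_⟩
    · have := hA'e.1
      exact Subgroup.map_isMulCommutative A' _
    · rintro _ ⟨a, ha, rfl⟩
      rw [← map_pow, hA'e.2 a ha, map_one]
  have hA4 : Nat.card A = p ^ 4 := by rw [hAdef, Subgroup.card_subtype, hA'4]
  have hAM : A ≤ M := Subgroup.map_subtype_le A'
  have hMA : M ≤ Subgroup.normalizer (A : Set G) :=
    (Subgroup.normal_subgroupOf_iff_le_normalizer hAM).1 (by
      rw [hAdef, Subgroup.subgroupOf, Subgroup.comap_map_eq_self_of_injective M.subtype_injective]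
      exact hA'n)
  by_cases hAn : A.Normal
  · exact ⟨A, hAn, hAe, hA4⟩
  obtain ⟨a₀, ha₀, g, hg⟩ : ∃ a ∈ A, ∃ g : G, g * a * g⁻¹ ∉ A := by
    by_contra h
    push Not at h
    exact hAn ⟨fun a ha g => h a ha g⟩
  obtain ⟨A₀, hA₀n, hA₀e, hmax⟩ := exists_maximal_normal_elemAb hp2 hG
  obtain ⟨m, hm⟩ := IsPGroup.iff_card.1 (hG.to_subgroup A₀)
  by_cases hm4 : 4 ≤ m
  · obtain ⟨N, hN, hNA, hN4⟩ := exists_normal_card_le hG hm hm4
    exact ⟨N, hN, isElementaryAbelian_of_le hA₀e hNA, hN4⟩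
  exfalso
  set K := Subgroup.centralizer (A₀ : Set G)
  have hinfK : ∀ {X : Subgroup G}, Cfsg.IsElementaryAbelian p X → X ⊓ K ≤ A₀ :=
    fun hX x hx => hmax x hx.2 (hX.2 x hx.1)
  have hm3 : m = 3 := by
    by_contra hne
    have hKi := index_centralizer_le hG m A₀ hA₀n hm
    have h1 := Subgroup.relIndex_mul_relIndex ⊥ (A ⊓ K) A bot_le inf_le_left
    rw [Subgroup.inf_relIndex_left] at h1
    simp only [Subgroup.relIndex_bot_left] at h1
    have h2 : Nat.card (A ⊓ K : Subgroup G) ≤ p ^ m :=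
      hm ▸ Subgroup.card_le_of_le (hinfK hAe)
    have h3 : K.relIndex A ≤ p ^ m.choose 2 :=
      (Nat.le_of_dvd (Nat.pos_of_ne_zero Subgroup.index_ne_zero_of_finite)
        (Subgroup.relIndex_dvd_index_of_normal K A)).trans hKi
    have h4 := Nat.mul_le_mul h2 h3
    rw [h1, hA4, ← pow_add] at h4
    have h5 := (Nat.pow_le_pow_iff_right hp.out.one_lt).1 h4
    interval_cases m <;> simp_all
  subst hm3
  obtain ⟨L₂, hL₂n, h₂₀, hc₂⟩ := exists_normal_card_le hG hm (show 2 ≤ 3 by omega)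
  obtain ⟨L₁, hL₁n, h₁₂, hc₁⟩ := exists_normal_card_le hG hc₂ (show 1 ≤ 2 by omega)
  rw [pow_one] at hc₁
  have hcZ := le_center_of_card_eq_prime hG hc₁
  have hstep : ∀ (L N : Subgroup G), L.Normal → N.Normal → L ≤ N →
      Nat.card N = p * Nat.card L → ∀ g : G, ∀ a ∈ N, ⁅g, a⁆ ∈ L := by
    intro L N hLn hNn hLN hc g a ha
    have := Subgroup.Normal.map hNn (QuotientGroup.mk' L) (QuotientGroup.mk'_surjective L)
    have hcard : Nat.card (N.map (QuotientGroup.mk' L)) = p := by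
      rw [← Subgroup.relIndex_bot_left (H := N.map (QuotientGroup.mk' L)), ← Subgroup.relIndex_comap,
        MonoidHom.comap_bot, QuotientGroup.ker_mk']
      have h := Subgroup.relIndex_mul_relIndex ⊥ L N bot_le hLN
      rw [Subgroup.relIndex_bot_left, Subgroup.relIndex_bot_left, hc, mul_comm p] at h
      exact Nat.eq_of_mul_eq_mul_left Nat.card_pos h
    have hz := le_center_of_card_eq_prime (hG.to_quotient L) hcard
      (Subgroup.mem_map_of_mem (QuotientGroup.mk' L) ha)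
    rw [← QuotientGroup.eq_one_iff]
    change QuotientGroup.mk' L ⁅g, a⁆ = 1
    rw [map_commutatorElement, commutatorElement_eq_one_iff_mul_comm]
    exact Subgroup.mem_center_iff.1 hz _
  have hcA := hstep L₂ A₀ hL₂n hA₀n h₂₀ (by rw [hm, hc₂]; ring)
  have hcL := hstep L₁ L₂ hL₁n hL₂n h₁₂ (by rw [hc₁, hc₂]; ring)
  set B := A.map (MulAut.conj g).toMonoidHom with hBdef
  have hBe : Cfsg.IsElementaryAbelian p B := by
    refine ⟨?_, ?_⟩
    · have := hAe.1
      exact Subgroup.map_isMulCommutative A _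
    · rintro _ ⟨a, ha, rfl⟩
      rw [← map_pow, hAe.2 a ha, map_one]
  have hB4 : Nat.card B = p ^ 4 := by
    rw [hBdef, Subgroup.card_map_of_injective (MulAut.conj g).injective, hA4]
  have hBM : B ≤ M := by
    rintro _ ⟨a, ha, rfl⟩
    exact hMn.conj_mem a (hAM ha) g
  have hMB : M ≤ Subgroup.normalizer (B : Set G) := by
    rw [hBdef, ← Subgroup.map_equiv_normalizer_eq]
    intro x hx
    exact ⟨g⁻¹ * x * g, hMA (by simpa using hMn.conj_mem x hx g⁻¹), by simp [mul_assoc]⟩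
  have hA₂ := inf_eq_of_elemAb_four hG hA₀e hmax hm h₁₂ h₂₀ hc₁ hc₂ hcA hcL hcZ hAe hA4
  have hB₂ := inf_eq_of_elemAb_four hG hA₀e hmax hm h₁₂ h₂₀ hc₁ hc₂ hcA hcL hcZ hBe hB4
  set W := A ⊔ B
  have hBA : B ≤ Subgroup.normalizer (A : Set G) := hBM.trans hMA
  have hmem : ∀ w ∈ W, ∃ a ∈ A, ∃ b ∈ B, w = a * b := by
    intro w hw
    have hw' : w ∈ ((W : Subgroup G) : Set G) := hw
    rw [Subgroup.coe_mul_of_right_le_normalizer_left A B hBA] at hw'
    obtain ⟨a, ha, b, hb, rfl⟩ := Set.mem_mul.1 hw'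
    exact ⟨a, ha, b, hb, rfl⟩
  have hcomm : ∀ a ∈ A, ∀ b ∈ B, ⁅b, a⁆ ∈ A ⊓ B := fun a ha b hb =>
    ⟨Subgroup.le_normalizer_iff_commutator_le_right.1 hBA
      (Subgroup.commutator_mem_commutator hb ha),
    Subgroup.le_normalizer_iff_commutator_le_left.1 (hAM.trans hMB)
      (Subgroup.commutator_mem_commutator hb ha)⟩
  have hexp : ∀ w ∈ W, w ^ p = 1 := by
    intro w hw
    obtain ⟨a, ha, b, hb, rfl⟩ := hmem w hw
    obtain ⟨k, hk⟩ := dvd_choose_two_of_odd (odd_prime hp2 (p := p))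
    rw [mul_pow_of_commute (elemAb_commute hAe (hcomm a ha b hb).1 ha)
      (elemAb_commute hBe (hcomm a ha b hb).2 hb), hAe.2 a ha, hBe.2 b hb, hk, pow_mul,
      hAe.2 _ (hcomm a ha b hb).1, one_pow, mul_one, mul_one]
  have hWK : W ⊓ K ≤ A₀ := fun w hw => hmax w hw.2 (hexp w hw.1)
  have hWC : W ≤ Subgroup.centralizer (L₂ : Set G) := by
    have hX : ∀ {X : Subgroup G}, Cfsg.IsElementaryAbelian p X → X ⊓ A₀ = L₂ →
        X ≤ Subgroup.centralizer (L₂ : Set G) := fun hX h x hx =>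
      Subgroup.mem_centralizer_iff.2 fun l hl =>
        (elemAb_commute hX ((h.symm ▸ hl : l ∈ _ ⊓ A₀).1) hx).eq
    exact sup_le (hX hAe hA₂) (hX hBe hB₂)
  obtain ⟨a, haA, han⟩ : ∃ a ∈ A₀, a ∉ L₂ := by
    by_contra h
    push Not at h
    have := Subgroup.card_le_of_le (show A₀ ≤ L₂ from h)
    rw [hm, hc₂] at this
    have := (Nat.pow_le_pow_iff_right hp.out.one_lt).1 this
    omega
  have hKW : K.relIndex W ≤ p ^ 2 := by
    have h1 : W ⊓ Subgroup.centralizer ({a} : Set G) ≤ K := by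
      intro w hw
      have hA : A₀ ≤ Subgroup.centralizer ({w} : Set G) := by
        have hle : A₀ ≤ L₂ ⊔ Subgroup.zpowers a := by
          have hlt : L₂ < L₂ ⊔ Subgroup.zpowers a := lt_of_le_of_ne le_sup_left fun h =>
            han (h ▸ Subgroup.mem_sup_right (Subgroup.mem_zpowers a))
          refine (Subgroup.eq_of_le_of_card_ge (sup_le h₂₀ (Subgroup.zpowers_le.2 haA)) ?_).ge
          have := prime_mul_card_le hG hlt
          rw [hc₂] at this
          rw [hm, pow_succ']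
          exact this
        refine hle.trans (sup_le (fun l hl => ?_) ?_)
        · rw [Subgroup.mem_centralizer_singleton_iff]
          exact Subgroup.mem_centralizer_iff.1 (hWC hw.1) l hl
        · rw [Subgroup.zpowers_le, Subgroup.mem_centralizer_singleton_iff]
          exact (Subgroup.mem_centralizer_singleton_iff.1 hw.2).symm
      exact Subgroup.mem_centralizer_iff.2 fun z hz =>
        Subgroup.mem_centralizer_singleton_iff.1 (hA hz)
    calc K.relIndex W = (W ⊓ K).relIndex W := (Subgroup.inf_relIndex_left _ _).symm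
      _ ≤ (W ⊓ Subgroup.centralizer ({a} : Set G)).relIndex W :=
          Nat.le_of_dvd (Nat.pos_of_ne_zero Subgroup.index_ne_zero_of_finite)
            (Subgroup.relIndex_dvd_of_le_left W (le_inf inf_le_left h1))
      _ = (Subgroup.centralizer ({a} : Set G)).relIndex W := Subgroup.inf_relIndex_left _ _
      _ ≤ p ^ 2 := (inf_index_le_of_commutator a (fun w _ => hcA w a haA) rfl).trans_eq hc₂
  have hW1 := Subgroup.relIndex_mul_relIndex ⊥ (W ⊓ K) W bot_le inf_le_left
  rw [Subgroup.inf_relIndex_left] at hW1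
  simp only [Subgroup.relIndex_bot_left] at hW1
  have hWle : Nat.card W ≤ p ^ 5 := by
    rw [← hW1, show (5 : ℕ) = 3 + 2 from rfl, pow_add]
    exact Nat.mul_le_mul (hm ▸ Subgroup.card_le_of_le hWK) hKW
  have hAW : A < W := lt_of_le_of_ne le_sup_left fun h => hg (by
    rw [h]
    exact Subgroup.mem_sup_right (Subgroup.mem_map_of_mem _ ha₀))
  have hW5 : Nat.card W = p ^ 5 := by
    refine le_antisymm hWle ?_
    have := prime_mul_card_le hG hAW
    rwa [hA4, ← pow_succ'] at this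
  have hWKeq : W ⊓ K = A₀ := by
    refine Subgroup.eq_of_le_of_card_ge hWK ?_
    rw [hW5, show (5 : ℕ) = 3 + 2 from rfl, pow_add, ← hm] at hW1
    exact Nat.le_of_mul_le_mul_right (hW1 ▸ Nat.mul_le_mul_left _ hKW) (pow_pos hp.out.pos 2)
  -- `A ∩ B` is central in `W ⊇ A₀`, so lies in `A₀`
  have hIA₀ : A ⊓ B ≤ A₀ := by
    intro x hx
    refine hmax x (Subgroup.mem_centralizer_iff.2 fun z hz => ?_) (hAe.2 x hx.1)
    obtain ⟨a', ha', b', hb', rfl⟩ := hmem z (hWKeq.ge hz).1
    exact ((elemAb_commute hAe ha' hx.1).mul_left (elemAb_commute hBe hb' hx.2)).eq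
  have hIc : p ^ 3 ≤ Nat.card (A ⊓ B : Subgroup G) := by
    have h1 := Subgroup.relIndex_mul_relIndex ⊥ (A ⊓ B) B bot_le inf_le_right
    simp only [Subgroup.relIndex_bot_left] at h1
    have h2 := Subgroup.relIndex_mul_relIndex ⊥ A W bot_le le_sup_left
    simp only [Subgroup.relIndex_bot_left] at h2
    have h3 : A.relIndex W = A.relIndex B := by
      have hAn' := (Subgroup.normal_subgroupOf_iff_le_normalizer (le_sup_left : A ≤ W)).2
        (sup_le Subgroup.le_normalizer hBA)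
      have := Subgroup.relIndex_sup_right (H := B.subgroupOf W) (K := A.subgroupOf W)
      rwa [← Subgroup.subgroupOf_sup (le_sup_right : B ≤ W) le_sup_left, sup_comm B A,
        Subgroup.relIndex_subgroupOf le_rfl, Subgroup.relIndex_subgroupOf le_sup_right] at this
    have h4 : (A ⊓ B).relIndex B = A.relIndex B := Subgroup.inf_relIndex_right _ _
    rw [h3, hA4, hW5, pow_succ] at h2
    have h5 : A.relIndex B = p := Nat.eq_of_mul_eq_mul_left (pow_pos hp.out.pos 4) h2
    rw [h4, h5, hB4, pow_succ] at h1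
    exact (Nat.eq_of_mul_eq_mul_right hp.out.pos h1).ge
  have hA₀A : A₀ ≤ A :=
    (Subgroup.eq_of_le_of_card_ge hIA₀ (hm ▸ hIc)).ge.trans inf_le_left
  have := Subgroup.card_le_of_le (show A₀ ≤ L₂ from hA₂ ▸ le_inf hA₀A le_rfl)
  rw [hm, hc₂] at this
  have := (Nat.pow_le_pow_iff_right hp.out.one_lt).1 this
  omega

end CfsgLib.PGroups
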